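import Mathlib

/-!
A finite `p`-subgroup of a linear group of degree `n` has derived length at most `log₂ n + 1`.
-/

set_option autoImplicit false

namespace Cfsg.Agent.LinearPGroupDL

open scoped commutatorElement

universe u v w

section

variable {F : Type u} [Field F] {P : Type v} [Group P]

/-- The restriction of an action to an invariant subspace. -/
def restrictRep {V : Type w} [AddCommGroup V] [Module F V] (ρ : P →* Module.End F V)
    (W : Submodule F V) (h : ∀ g, ∀ x ∈ W, ρ g x ∈ W) : P →* Module.End F W where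
  toFun g := (ρ g).restrict (h g)
  map_one' := LinearMap.ext fun x => Subtype.ext (by simp)
  map_mul' a b := LinearMap.ext fun x => Subtype.ext (by simp)

@[simp] theorem restrictRep_apply {V : Type w} [AddCommGroup V] [Module F V]
    (ρ : P →* Module.End F V) (W : Submodule F V) (h : ∀ g, ∀ x ∈ W, ρ g x ∈ W) (g : P) (x : W) :
    ((restrictRep ρ W h g x : W) : V) = ρ g x := rfl

/-- The action on the quotient by an invariant subspace. -/
def quotientRep {V : Type w} [AddCommGroup V] [Module F V] (ρ : P →* Module.End F V)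
    (W : Submodule F V) (h : ∀ g, ∀ x ∈ W, ρ g x ∈ W) : P →* Module.End F (V ⧸ W) where
  toFun g := W.mapQ W (ρ g) (h g)
  map_one' := Submodule.linearMap_qext _ (LinearMap.ext fun x => by simp)
  map_mul' a b := Submodule.linearMap_qext _ (LinearMap.ext fun x => by simp)

@[simp] theorem quotientRep_mk {V : Type w} [AddCommGroup V] [Module F V]
    (ρ : P →* Module.End F V) (W : Submodule F V) (h : ∀ g, ∀ x ∈ W, ρ g x ∈ W) (g : P) (x : V) :
    quotientRep ρ W h g (Submodule.Quotient.mk x) = Submodule.Quotient.mk (ρ g x) := rfl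

theorem rep_inv_apply {V : Type w} [AddCommGroup V] [Module F V] (ρ : P →* Module.End F V)
    (g : P) (x : V) : ρ g⁻¹ (ρ g x) = x := by
  rw [← Module.End.mul_apply, ← map_mul, inv_mul_cancel, map_one, Module.End.one_apply]

theorem rep_apply_inv {V : Type w} [AddCommGroup V] [Module F V] (ρ : P →* Module.End F V)
    (g : P) (x : V) : ρ g (ρ g⁻¹ x) = x := by
  simpa using rep_inv_apply ρ g⁻¹ x

theorem derivedSeries_succ_le_map (C : Subgroup P) (hC : commutator P ≤ C) :
    ∀ k, derivedSeries P (k + 1) ≤ (derivedSeries C k).map C.subtype := by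
  intro k
  induction k with
  | zero =>
    intro x hx
    have hx' : x ∈ commutator P := by rwa [derivedSeries_succ, derivedSeries_zero] at hx
    exact ⟨⟨x, hC hx'⟩, by simp, rfl⟩
  | succ k ih =>
    rw [derivedSeries_succ, derivedSeries_succ C k, Subgroup.map_commutator]
    exact Subgroup.commutator_mono ih ih

/-- An element of `p`-power order fixing a subspace and its quotient is trivial, `p ≠ 0`. -/
theorem eq_one_of_fixes {V : Type w} [AddCommGroup V] [Module F V] {p : ℕ} (hp : (p : F) ≠ 0)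
    (hP : IsPGroup p P) (ρ : P →* Module.End F V) (W : Submodule F V) {g : P}
    (h1 : ∀ x ∈ W, ρ g x = x) (h2 : ∀ x, ρ g x - x ∈ W) : ρ g = 1 := by
  obtain ⟨k, hk⟩ := hP g
  refine LinearMap.ext fun x => ?_
  have key : ∀ m : ℕ, ρ (g ^ m) x = x + (m : F) • (ρ g x - x) := by
    intro m
    induction m with
    | zero => simp
    | succ m ih =>
      rw [pow_succ', map_mul, Module.End.mul_apply, ih, map_add, map_smul, h1 _ (h2 x)]
      push_cast
      rw [add_smul, one_smul]
      abel
  have h := key (p ^ k)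
  rw [hk, map_one, Module.End.one_apply, eq_comm, add_eq_left, smul_eq_zero] at h
  rcases h with h | h
  · exact absurd h (by push_cast; exact pow_ne_zero _ hp)
  · rw [Module.End.one_apply, ← sub_eq_zero, h]

end

/-- Characteristic different from `p`, algebraically closed field. -/
theorem main_coprime {F : Type u} [Field F] [IsAlgClosed F] {p : ℕ} [Fact p.Prime]
    (hpF : (p : F) ≠ 0) :
    ∀ (n : ℕ) (P : Type v) [Group P] [Finite P], IsPGroup p P →
      ∀ (V : Type w) [AddCommGroup V] [Module F V] [FiniteDimensional F V],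
        Module.finrank F V = n → ∀ ρ : P →* Module.End F V,
          ∀ x ∈ derivedSeries P (Nat.log 2 n + 1), ρ x = 1 := by
  intro n
  induction n using Nat.strong_induction_on with
  | _ n ih =>
  intro P _ _ hP V _ _ _ hn ρ x hx
  by_cases hred : ∃ W : Submodule F V, W ≠ ⊥ ∧ W ≠ ⊤ ∧ ∀ g, ∀ v ∈ W, ρ g v ∈ W
  · obtain ⟨W, hW0, hW1, hW⟩ := hred
    have hlt : Module.finrank F W < n := hn ▸ Submodule.finrank_lt hW1
    have hpos : 0 < Module.finrank F W := Submodule.one_le_finrank_iff.2 hW0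
    have hlt' : Module.finrank F (V ⧸ W) < n := by
      have := W.finrank_quotient_add_finrank
      omega
    have hmono : ∀ m, m < n →
        derivedSeries P (Nat.log 2 n + 1) ≤ derivedSeries P (Nat.log 2 m + 1) :=
      fun m hm => derivedSeries_antitone P (by have := Nat.log_mono_right (b := 2) hm.le; omega)
    have h1 := ih _ hlt P hP W rfl (restrictRep ρ W hW) x (hmono _ hlt hx)
    have h2 := ih _ hlt' P hP (V ⧸ W) rfl (quotientRep ρ W hW) x (hmono _ hlt' hx)
    refine eq_one_of_fixes hpF hP ρ W (fun v hv => ?_) (fun v => ?_)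
    · have := congrArg (fun f : Module.End F W => ((f ⟨v, hv⟩ : W) : V)) h1
      simpa using this
    · have := congrArg (fun f : Module.End F (V ⧸ W) => f (Submodule.Quotient.mk v)) h2
      simpa [Submodule.Quotient.eq] using this
  push Not at hred
  -- the irreducible case
  by_cases hab : ∀ a b : P, ρ (a * b) = ρ (b * a)
  · have hle : commutator P ≤ ρ.ker := by
      rw [commutator_def, Subgroup.commutator_le]
      intro a _ b _
      rw [MonoidHom.mem_ker, commutatorElement_def,
        show a * b * a⁻¹ * b⁻¹ = a * b * (b * a)⁻¹ by group, map_mul, hab a b, ← map_mul,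
        mul_inv_cancel, map_one]
    refine hle ?_
    have := derivedSeries_antitone P (show 1 ≤ Nat.log 2 n + 1 by omega) hx
    rwa [derivedSeries_succ, derivedSeries_zero] at this
  -- the elements acting as scalars
  let S : Subgroup P :=
    { carrier := {g | ∃ c : F, c ≠ 0 ∧ ρ g = c • 1}
      one_mem' := ⟨1, one_ne_zero, by simp⟩
      mul_mem' := by
        rintro a b ⟨c, hc, ha⟩ ⟨d, hd, hb⟩
        exact ⟨c * d, mul_ne_zero hc hd, by rw [map_mul, ha, hb, smul_mul_smul_comm, one_mul]⟩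
      inv_mem' := by
        rintro a ⟨c, hc, ha⟩
        refine ⟨c⁻¹, inv_ne_zero hc, ?_⟩
        calc ρ a⁻¹ = c⁻¹ • (ρ a⁻¹ * (c • 1)) := by
              rw [mul_smul_comm, mul_one, smul_smul, inv_mul_cancel₀ hc, one_smul]
          _ = c⁻¹ • 1 := by rw [← ha, ← map_mul, inv_mul_cancel, map_one] }
  haveI hSn : S.Normal := ⟨by
    rintro a ⟨c, hc, ha⟩ g
    refine ⟨c, hc, ?_⟩
    rw [map_mul, map_mul, ha, mul_smul_comm, mul_one, smul_mul_assoc, ← map_mul, mul_inv_cancel,
      map_one]⟩
  haveI : Nontrivial (P ⧸ S) := by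
    rw [QuotientGroup.nontrivial_iff]
    intro hS
    apply hab
    intro a b
    obtain ⟨c, -, ha⟩ : a ∈ S := by rw [hS]; trivial
    rw [map_mul, map_mul, ha, smul_mul_assoc, mul_smul_comm, one_mul, mul_one]
  haveI := (hP.to_quotient S).center_nontrivial
  obtain ⟨⟨z, hz⟩, hz1⟩ := exists_ne (1 : Subgroup.center (P ⧸ S))
  obtain ⟨a, rfl⟩ := QuotientGroup.mk'_surjective S z
  have haS : a ∉ S := fun h => hz1 (Subtype.ext ((QuotientGroup.eq_one_iff a).2 h))
  have hcS : ∀ g, a * g * a⁻¹ * g⁻¹ ∈ S := by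
    intro g
    refine (QuotientGroup.eq_one_iff _).1 ?_
    have h : QuotientGroup.mk' S g * QuotientGroup.mk' S a =
        QuotientGroup.mk' S a * QuotientGroup.mk' S g :=
      Subgroup.mem_center_iff.1 hz (QuotientGroup.mk' S g)
    show QuotientGroup.mk' S (a * g * a⁻¹ * g⁻¹) = 1
    rw [map_mul, map_mul, map_mul, map_inv, map_inv, ← h]
    group
  -- the stabilizer of the eigenspaces of `a`
  let C : Subgroup P :=
    { carrier := {g | ρ (g * a) = ρ (a * g)}
      one_mem' := by simp
      mul_mem' := by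
        intro b c hb hc
        have hb' : ρ b * ρ a = ρ a * ρ b := by rw [← map_mul, ← map_mul]; exact hb
        have hc' : ρ c * ρ a = ρ a * ρ c := by rw [← map_mul, ← map_mul]; exact hc
        show ρ (b * c * a) = ρ (a * (b * c))
        simp only [map_mul]
        rw [mul_assoc, hc', ← mul_assoc, hb', mul_assoc]
      inv_mem' := by
        intro b hb
        have hb' : ρ (b * a) = ρ (a * b) := hb
        show ρ (b⁻¹ * a) = ρ (a * b⁻¹)
        calc ρ (b⁻¹ * a) = ρ b⁻¹ * ρ (a * b) * ρ b⁻¹ := by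
              rw [← map_mul, ← map_mul]; congr 1; group
          _ = ρ b⁻¹ * ρ (b * a) * ρ b⁻¹ := by rw [hb']
          _ = ρ (a * b⁻¹) := by rw [← map_mul, ← map_mul]; congr 1; group }
  have hcomm : commutator P ≤ C := by
    rw [commutator_def, Subgroup.commutator_le]
    intro g _ h _
    obtain ⟨c, hc, hg⟩ := hcS g
    obtain ⟨d, hd, hh⟩ := hcS h
    have e : ∀ (u : P) (r : F), ρ (a * u * a⁻¹ * u⁻¹) = r • 1 → ρ a * ρ u = r • (ρ u * ρ a) := by
      intro u r hr
      calc ρ a * ρ u = ρ (a * u * a⁻¹ * u⁻¹) * (ρ u * ρ a) := by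
            rw [← map_mul, ← map_mul, ← map_mul]; congr 1; group
        _ = r • (ρ u * ρ a) := by rw [hr, smul_mul_assoc, one_mul]
    have eg := e g c hg
    have eh := e h d hh
    have eg' : ρ a * ρ g⁻¹ = c⁻¹ • (ρ g⁻¹ * ρ a) := by
      have h1 : ρ g⁻¹ * (ρ a * ρ g) * ρ g⁻¹ = ρ g⁻¹ * (c • (ρ g * ρ a)) * ρ g⁻¹ := by rw [eg]
      rw [mul_smul_comm, smul_mul_assoc, ← map_mul, ← map_mul, ← map_mul, ← map_mul, ← map_mul,
        ← map_mul, show g⁻¹ * (a * g) * g⁻¹ = g⁻¹ * a by group,
        show g⁻¹ * (g * a) * g⁻¹ = a * g⁻¹ by group, map_mul, map_mul] at h1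
      rw [h1, smul_smul, inv_mul_cancel₀ hc, one_smul]
    have eh' : ρ a * ρ h⁻¹ = d⁻¹ • (ρ h⁻¹ * ρ a) := by
      have h1 : ρ h⁻¹ * (ρ a * ρ h) * ρ h⁻¹ = ρ h⁻¹ * (d • (ρ h * ρ a)) * ρ h⁻¹ := by rw [eh]
      rw [mul_smul_comm, smul_mul_assoc, ← map_mul, ← map_mul, ← map_mul, ← map_mul, ← map_mul,
        ← map_mul, show h⁻¹ * (a * h) * h⁻¹ = h⁻¹ * a by group,
        show h⁻¹ * (h * a) * h⁻¹ = a * h⁻¹ by group, map_mul, map_mul] at h1
      rw [h1, smul_smul, inv_mul_cancel₀ hd, one_smul]
    show ρ (⁅g, h⁆ * a) = ρ (a * ⁅g, h⁆)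
    rw [commutatorElement_def]
    simp only [map_mul]
    symm
    calc ρ a * (ρ g * ρ h * ρ g⁻¹ * ρ h⁻¹)
        = (ρ a * ρ g) * ρ h * ρ g⁻¹ * ρ h⁻¹ := by simp only [mul_assoc]
      _ = c • (ρ g * (ρ a * ρ h) * ρ g⁻¹ * ρ h⁻¹) := by
          rw [eg]; simp only [smul_mul_assoc, mul_assoc]
      _ = (c * d) • (ρ g * ρ h * (ρ a * ρ g⁻¹) * ρ h⁻¹) := by
          rw [eh]; simp only [smul_mul_assoc, mul_smul_comm, smul_smul, mul_assoc]
      _ = (c * d * c⁻¹) • (ρ g * ρ h * ρ g⁻¹ * (ρ a * ρ h⁻¹)) := by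
          rw [eg']; simp only [smul_mul_assoc, mul_smul_comm, smul_smul, mul_assoc]
      _ = (c * d * c⁻¹ * d⁻¹) • (ρ g * ρ h * ρ g⁻¹ * ρ h⁻¹ * ρ a) := by
          rw [eh']; simp only [smul_mul_assoc, mul_smul_comm, smul_smul, mul_assoc]
      _ = _ := by
          rw [show c * d * c⁻¹ * d⁻¹ = 1 by field_simp, one_smul]
  haveI hCn : C.Normal := ⟨fun b hb g => by
    have h : ⁅g, b⁆ ∈ C := hcomm (Subgroup.commutator_mem_commutator (Subgroup.mem_top g)
      (Subgroup.mem_top b))
    simpa [commutatorElement_def, mul_assoc] using C.mul_mem h hb⟩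
  haveI : Nontrivial V := by
    by_contra hV
    rw [not_nontrivial_iff_subsingleton] at hV
    exact hab fun b c => LinearMap.ext fun v => Subsingleton.elim _ _
  obtain ⟨ζ, hζ⟩ := Module.End.exists_eigenvalue (ρ a)
  have hζ0 : ζ ≠ 0 := by
    rintro rfl
    obtain ⟨v, hv⟩ := hζ.exists_hasEigenvector
    have h1 := hv.apply_eq_smul
    rw [zero_smul] at h1
    exact hv.2 (by rw [← rep_inv_apply ρ a v, h1, map_zero])
  set E := Module.End.eigenspace (ρ a) ζ with hE
  have hEC : ∀ g ∈ C, ∀ v ∈ E, ρ g v ∈ E := by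
    intro g hg v hv
    rw [hE, Module.End.mem_eigenspace_iff] at hv ⊢
    have : ρ a * ρ g = ρ g * ρ a := by rw [← map_mul, ← map_mul]; exact hg.symm
    rw [← Module.End.mul_apply, this, Module.End.mul_apply, hv, map_smul]
  have hEtop : E ≠ ⊤ := fun h => haS ⟨ζ, hζ0, LinearMap.ext fun v => by
    have : v ∈ E := by rw [h]; trivial
    rw [hE, Module.End.mem_eigenspace_iff] at this
    simpa using this⟩
  obtain ⟨W, ⟨hW0, hWE, hWC⟩, hWmin⟩ := WellFounded.has_min
    (wellFounded_lt (α := Submodule F V))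
    {W | W ≠ ⊥ ∧ W ≤ E ∧ ∀ g ∈ C, ∀ v ∈ W, ρ g v ∈ W} ⟨E, hζ, le_rfl, hEC⟩
  have hWtop : W ≠ ⊤ := fun h => hEtop (eq_top_iff.2 (h ▸ hWE))
  have hT : ∀ (g : P), ∀ b ∈ C, ∀ v ∈ W.map (ρ g), ρ b v ∈ W.map (ρ g) := by
    rintro g b hb _ ⟨v, hv, rfl⟩
    refine ⟨ρ (g⁻¹ * b * g) v, hWC _ (by simpa using hCn.conj_mem b hb g⁻¹) v hv, ?_⟩
    rw [← Module.End.mul_apply, ← map_mul, ← Module.End.mul_apply, ← map_mul]
    congr 2
    group
  -- a translate of `W` meets it trivially
  obtain ⟨g, v₀, hv₀, hgv⟩ := hred W hW0 hWtop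
  have hinj : Function.Injective (ρ g) :=
    Function.LeftInverse.injective (rep_inv_apply ρ g)
  have hdim : Module.finrank F (W.map (ρ g)) = Module.finrank F W :=
    (Submodule.equivMapOfInjective _ hinj W).finrank_eq.symm
  have hdis : W ⊓ W.map (ρ g) = ⊥ := by
    by_contra h
    have hnlt := hWmin (W ⊓ W.map (ρ g)) ⟨h, inf_le_left.trans hWE,
      fun b hb v hv => ⟨hWC b hb v hv.1, hT g b hb v hv.2⟩⟩
    have heq : W ⊓ W.map (ρ g) = W :=
      (inf_le_left : W ⊓ W.map (ρ g) ≤ W).eq_of_not_lt hnlt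
    have := Submodule.eq_of_le_of_finrank_eq (inf_eq_left.1 heq) hdim.symm
    exact hgv (this.symm ▸ Submodule.mem_map_of_mem hv₀)
  have htwo : Module.finrank F W * 2 ≤ n := by
    have h1 := Submodule.finrank_sup_add_finrank_inf_eq W (W.map (ρ g))
    rw [hdis, finrank_bot, add_zero, hdim] at h1
    have h2 := Submodule.finrank_le (W ⊔ W.map (ρ g))
    omega
  have hpos : 0 < Module.finrank F W := Submodule.one_le_finrank_iff.2 hW0
  have hlog : Nat.log 2 (Module.finrank F W) + 1 ≤ Nat.log 2 n := by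
    have := Nat.log_mono_right (b := 2) htwo
    rwa [Nat.log_mul_base one_lt_two hpos.ne'] at this
  -- the derived subgroup fixes every translate
  obtain ⟨y, hy, rfl⟩ := derivedSeries_succ_le_map C hcomm (Nat.log 2 (Module.finrank F W) + 1)
    (derivedSeries_antitone P (by omega) hx)
  have hfix : ∀ (h : P), ∀ v ∈ W.map (ρ h), ρ (y : P) v = v := by
    intro h v hv
    have hd : Module.finrank F (W.map (ρ h)) = Module.finrank F W :=
      (Submodule.equivMapOfInjective _
        (Function.LeftInverse.injective (rep_inv_apply ρ h)) W).finrank_eq.symm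
    have h1 := ih _ (by omega) C (hP.to_subgroup C) (W.map (ρ h)) rfl
      (restrictRep (ρ.comp C.subtype) _ (fun b => hT h b b.2)) y (by rw [hd]; exact hy)
    have := congrArg (fun f : Module.End F (W.map (ρ h)) => ((f ⟨v, hv⟩ : W.map (ρ h)) : V)) h1
    exact this
  set U := ⨆ h : P, W.map (ρ h) with hU
  have hUinv : ∀ b : P, ∀ v ∈ U, ρ b v ∈ U := by
    intro b v hv
    have : U.map (ρ b) ≤ U := by
      rw [hU, Submodule.map_iSup]
      refine iSup_le fun h => ?_
      rw [← Submodule.map_comp]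
      refine le_iSup_of_le (b * h) (le_of_eq ?_)
      rw [map_mul]
      rfl
    exact this (Submodule.mem_map_of_mem hv)
  have hUtop : U = ⊤ := by
    by_contra h
    have hU0 : U ≠ ⊥ := fun h0 => hW0 (le_bot_iff.1 (h0 ▸ le_iSup_of_le (1 : P) (by
      rw [map_one]; exact le_of_eq (Submodule.map_id W).symm)))
    obtain ⟨b, v, hv, hbv⟩ := hred U hU0 h
    exact hbv (hUinv b v hv)
  refine LinearMap.ext fun v => ?_
  have hle : U ≤ LinearMap.eqLocus (ρ (y : P)) 1 := iSup_le fun h v hv => hfix h v hv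
  exact hle (hUtop ▸ Submodule.mem_top)

section CharP

variable {F : Type u} [Field F] {P : Type v} [Group P] {V : Type w} [AddCommGroup V] [Module F V]

/-- The ascending fixed-point filtration. -/
def fil (ρ : P →* Module.End F V) : ℕ → Submodule F V
  | 0 => ⊥
  | j + 1 => ⨅ g : P, (fil ρ j).comap (ρ g - 1)

theorem mem_fil_succ (ρ : P →* Module.End F V) (j : ℕ) (v : V) :
    v ∈ fil ρ (j + 1) ↔ ∀ g, ρ g v - v ∈ fil ρ j := by
  simp [fil, Submodule.mem_iInf]

theorem fil_inv (ρ : P →* Module.End F V) :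
    ∀ j, ∀ g, ∀ v ∈ fil ρ j, ρ g v ∈ fil ρ j
  | 0 => fun g v hv => by
    have : v = 0 := (Submodule.mem_bot F).1 hv
    simp [this]
  | j + 1 => fun g v hv => by
    rw [mem_fil_succ] at hv ⊢
    intro h
    have : ρ h (ρ g v) - ρ g v = (ρ (h * g) v - v) - (ρ g v - v) := by
      rw [map_mul, Module.End.mul_apply]; abel
    rw [this]
    exact Submodule.sub_mem _ (hv _) (hv _)

theorem fil_mono (ρ : P →* Module.End F V) (j : ℕ) : fil ρ j ≤ fil ρ (j + 1) := fun v hv =>
  (mem_fil_succ ρ j v).2 fun g => Submodule.sub_mem _ (fil_inv ρ j g v hv) hv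

/-- A `p`-group in characteristic `p` fixes a nonzero vector. -/
theorem exists_fixed_vector {p : ℕ} [hp : Fact p.Prime] [CharP F p] [Finite P] (hP : IsPGroup p P)
    [Nontrivial V] (ρ : P →* Module.End F V) : ∃ v : V, v ≠ 0 ∧ ∀ g, ρ g v = v := by
  obtain ⟨v, hv⟩ := exists_ne (0 : V)
  letI : Algebra (ZMod p) F := ZMod.algebra F p
  letI : Module (ZMod p) V := Module.compHom V (algebraMap (ZMod p) F)
  set S : Submodule (ZMod p) V := Submodule.span (ZMod p) (Set.range fun g : P => ρ g v) with hS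
  haveI : Module.Finite (ZMod p) S :=
    Module.Finite.span_of_finite (ZMod p) (Set.finite_range _)
  haveI : Finite S := Module.finite_of_finite (ZMod p)
  have hmaps : ∀ g : P, ∀ x ∈ S, ρ g x ∈ S := by
    intro g x hx
    induction hx using Submodule.span_induction with
    | mem x hx =>
      obtain ⟨h, rfl⟩ := hx
      refine Submodule.subset_span ⟨g * h, ?_⟩
      simp [map_mul]
    | zero => simp
    | add x y _ _ hx hy => rw [map_add]; exact S.add_mem hx hy
    | smul c x _ hx =>
      show ρ g (algebraMap (ZMod p) F c • x) ∈ S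
      rw [map_smul]
      exact S.smul_mem c hx
  letI : MulAction P S :=
    { smul := fun g x => ⟨ρ g x, hmaps g x x.2⟩
      one_smul := fun x => Subtype.ext (by show ρ 1 (x : V) = x; simp)
      mul_smul := fun g h x => Subtype.ext (by show ρ (g * h) (x : V) = ρ g (ρ h x); simp) }
  haveI : Nontrivial S :=
    ⟨⟨⟨v, Submodule.subset_span ⟨1, by simp⟩⟩, 0, fun h => hv (congrArg Subtype.val h)⟩⟩
  have hdvd : p ∣ Nat.card S := by
    obtain ⟨b⟩ : Nonempty (Module.Basis _ (ZMod p) S) := ⟨Module.finBasis (ZMod p) S⟩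
    rw [Nat.card_congr b.equivFun.toEquiv, Nat.card_fun, Nat.card_zmod]
    refine dvd_pow_self p ?_
    rw [Nat.card_fin]
    exact Module.finrank_pos.ne'
  have h0 : (0 : S) ∈ MulAction.fixedPoints P S := fun g => Subtype.ext (map_zero (ρ g))
  obtain ⟨w, hw, hne⟩ :=
    hP.exists_fixed_point_of_prime_dvd_card_of_fixed_point S hdvd h0
  exact ⟨w, fun h => hne (Subtype.ext h.symm), fun g => congrArg Subtype.val (hw g)⟩

/-- Elements moving each layer of the filtration down by `d`. -/
def Drop (ρ : P →* Module.End F V) (d : ℕ) (g : P) : Prop :=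
  ∀ j, ∀ v ∈ fil ρ (j + d), ρ g v - v ∈ fil ρ j

theorem drop_derived (ρ : P →* Module.End F V) :
    ∀ i, ∀ g ∈ derivedSeries P i, Drop ρ (2 ^ i) g := by
  intro i
  induction i with
  | zero => exact fun g _ j v hv => (mem_fil_succ ρ j v).1 hv g
  | succ i ih =>
    intro g hg
    let L : Subgroup P :=
      { carrier := {g | Drop ρ (2 ^ (i + 1)) g}
        one_mem' := fun j v _ => by simp
        mul_mem' := fun {a b} ha hb j v hv => by
          have : ρ (a * b) v - v = (ρ a (ρ b v) - ρ b v) + (ρ b v - v) := by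
            rw [map_mul, Module.End.mul_apply]; abel
          rw [this]
          exact Submodule.add_mem _ (ha j _ (fil_inv ρ _ b v hv)) (hb j v hv)
        inv_mem' := fun {a} ha j v hv => by
          have : ρ a⁻¹ v - v = -(ρ a (ρ a⁻¹ v) - ρ a⁻¹ v) := by rw [rep_apply_inv]; abel
          rw [this]
          exact Submodule.neg_mem _ (ha j _ (fil_inv ρ _ a⁻¹ v hv)) }
    suffices derivedSeries P (i + 1) ≤ L from this hg
    rw [derivedSeries_succ, Subgroup.commutator_le]
    intro a ha b hb j v hv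
    rw [pow_succ, Nat.mul_two, ← Nat.add_assoc] at hv
    set u := ρ (b * a)⁻¹ v with hu
    have huF : u ∈ fil ρ (j + 2 ^ i + 2 ^ i) := fil_inv ρ _ _ v hv
    have h1 : v = ρ b (ρ a u) := by
      rw [← Module.End.mul_apply, ← map_mul, hu, rep_apply_inv]
    have h2 : ρ ⁅a, b⁆ v = ρ a (ρ b u) := by
      rw [hu, ← Module.End.mul_apply, ← map_mul, ← Module.End.mul_apply, ← map_mul,
        commutatorElement_def]
      congr 2
      group
    have hsub : ρ a (ρ b u) - ρ b (ρ a u) =
        (ρ a (ρ b u - u) - (ρ b u - u)) - (ρ b (ρ a u - u) - (ρ a u - u)) := by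
      simp only [map_sub]; abel
    rw [h2, h1, hsub]
    exact Submodule.sub_mem _ (ih a ha j _ (ih b hb _ u huF)) (ih b hb j _ (ih a ha _ u huF))

theorem main_char {p : ℕ} [Fact p.Prime] [CharP F p] [Finite P] (hP : IsPGroup p P)
    [FiniteDimensional F V] (ρ : P →* Module.End F V) {x : P}
    (hx : x ∈ derivedSeries P (Nat.log 2 (Module.finrank F V) + 1)) : ρ x = 1 := by
  have hgrow : ∀ j, j ≤ Module.finrank F (fil ρ j) ∨ fil ρ j = ⊤ := by
    intro j
    induction j with
    | zero => exact Or.inl (Nat.zero_le _)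
    | succ j ihj =>
      by_cases htop : fil ρ j = ⊤
      · exact Or.inr (eq_top_iff.2 (htop ▸ fil_mono ρ j))
      · have hj := ihj.resolve_right htop
        haveI : Nontrivial (V ⧸ fil ρ j) := Submodule.Quotient.nontrivial_iff.2 htop
        obtain ⟨w, hw0, hw⟩ :=
          exists_fixed_vector hP (quotientRep ρ (fil ρ j) (fil_inv ρ j))
        obtain ⟨v, rfl⟩ := Submodule.Quotient.mk_surjective _ w
        have hv1 : v ∈ fil ρ (j + 1) := (mem_fil_succ ρ j v).2 fun g =>
          (Submodule.Quotient.eq _).1 (by simpa using hw g)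
        have hlt : fil ρ j < fil ρ (j + 1) := lt_of_le_of_ne (fil_mono ρ j) fun h =>
          hw0 ((Submodule.Quotient.mk_eq_zero _).2 (h ▸ hv1))
        have := Submodule.finrank_lt_finrank_of_lt hlt
        exact Or.inl (by omega)
  set N := 2 ^ (Nat.log 2 (Module.finrank F V) + 1) with hN
  have hlt : Module.finrank F V < N := Nat.lt_pow_succ_log_self one_lt_two _
  have htop : fil ρ (0 + N) = ⊤ := by
    rw [Nat.zero_add]
    refine (hgrow N).resolve_left ?_
    have := Submodule.finrank_le (fil ρ N)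
    omega
  refine LinearMap.ext fun v => ?_
  have := drop_derived ρ _ x hx 0 v (htop ▸ Submodule.mem_top)
  simpa [fil, sub_eq_zero] using this

end CharP

theorem main {P : Type v} [Group P] [Finite P] (p : ℕ) [Fact p.Prime] (hP : IsPGroup p P)
    (F : Type u) [Field F] (n : ℕ) (ρ : P →* Matrix.GeneralLinearGroup (Fin n) F)
    (hρ : Function.Injective ρ) : derivedSeries P (Nat.log 2 n + 1) = ⊥ := by
  rw [eq_bot_iff]
  intro x hx
  rw [Subgroup.mem_bot]
  let K := AlgebraicClosure F
  let f : Matrix (Fin n) (Fin n) F →+* Matrix (Fin n) (Fin n) K := (algebraMap F K).mapMatrix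
  let σ : P →* Module.End K (Fin n → K) :=
    ((Matrix.toLinAlgEquiv' (R := K) (n := Fin n)).toAlgHom.toRingHom.toMonoidHom.comp
      f.toMonoidHom).comp ((Units.coeHom _).comp ρ)
  have hσ : Function.Injective σ := by
    intro a b h
    refine hρ (Units.ext ?_)
    have h1 : f (ρ a : Matrix (Fin n) (Fin n) F) = f (ρ b) :=
      (Matrix.toLinAlgEquiv' (R := K) (n := Fin n)).injective h
    exact Matrix.map_injective (algebraMap F K).injective h1
  have hdim : Module.finrank K (Fin n → K) = n := Module.finrank_fin_fun K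
  refine hσ ?_
  rw [map_one]
  by_cases hp : (p : K) = 0
  · haveI : CharP K p := (CharP.charP_iff_prime_eq_zero Fact.out).2 hp
    exact main_char hP σ (by rwa [hdim])
  · exact main_coprime hp n P hP (Fin n → K) hdim σ x hx

end Cfsg.Agent.LinearPGroupDL
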