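import Mathlib

/-!
Wreath products with a cyclic group of order `p` inside general linear groups.
-/

set_option autoImplicit false

namespace Cfsg.Agent.LinearPGroupDL

open scoped commutatorElement

section Wreath

variable (p : ℕ) [Fact p.Prime] {Q Y : Type*} [Group Q] [Group Y]
  (b : (ZMod p → Q) →* Y) (s : Y)

/-- The group generated by the base and the shift. -/
def wreath : Subgroup Y := b.range ⊔ Subgroup.zpowers s

theorem wreath_isPGroup (hQ : IsPGroup p Q) [Finite Q] (hs : s ^ p = 1)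
    (hconj : ∀ v, s * b v * s⁻¹ = b fun i => v (i - 1)) : IsPGroup p (wreath p b s) := by
  have hB : IsPGroup p b.range := by
    obtain ⟨k, hk⟩ := IsPGroup.iff_card.1 hQ
    have : IsPGroup p (ZMod p → Q) := IsPGroup.of_card (n := k * p) (by
      rw [Nat.card_fun, Nat.card_zmod, hk, pow_mul])
    exact this.of_surjective _ b.rangeRestrict_surjective
  refine hB.to_sup_of_normal_left' (fun x => ⟨1, ?_⟩) ?_
  · obtain ⟨z, hz⟩ := x.2
    apply Subtype.ext
    rw [SubmonoidClass.coe_pow, pow_one, ← hz, ← zpow_natCast, ← zpow_mul, mul_comm, zpow_mul,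
      zpow_natCast, hs, one_zpow]
    rfl
  · rw [Subgroup.zpowers_le, Subgroup.mem_normalizer_iff]
    intro x
    constructor
    · rintro ⟨v, rfl⟩
      exact ⟨_, (hconj v).symm⟩
    · rintro ⟨v, hv⟩
      refine ⟨fun i => v (i + 1), ?_⟩
      have e := hconj (fun i => v (i + 1))
      simp only [sub_add_cancel] at e
      rw [hv] at e
      exact mul_left_cancel (mul_right_cancel e)

theorem wreath_proj (hconj : ∀ v, s * b v * s⁻¹ = b fun i => v (i - 1)) :
    ∀ (j : ℕ) (q : Q), q ∈ derivedSeries Q j →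
      ∃ v : ZMod p → Q, v 0 = q ∧ ∃ y ∈ derivedSeries (wreath p b s) (j + 1), (y : Y) = b v := by
  classical
  intro j
  induction j with
  | zero =>
    intro q _
    let u : ZMod p → Q := Pi.mulSingle 0 q
    have hu : b u ∈ wreath p b s := Subgroup.mem_sup_left ⟨u, rfl⟩
    have hs : s ∈ wreath p b s := Subgroup.mem_sup_right (Subgroup.mem_zpowers _)
    refine ⟨fun i => u i * (u (i - 1))⁻¹, ?_, ⁅(⟨_, hu⟩ : wreath p b s), ⟨_, hs⟩⁆, ?_, ?_⟩
    · show u 0 * (u (0 - 1))⁻¹ = q
      simp only [u, Pi.mulSingle_eq_same]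
      rw [Pi.mulSingle_eq_of_ne (by simp), inv_one, mul_one]
    · rw [derivedSeries_succ, derivedSeries_zero]
      exact Subgroup.commutator_mem_commutator (Subgroup.mem_top _) (Subgroup.mem_top _)
    · show b u * s * (b u)⁻¹ * s⁻¹ = _
      have e := hconj u⁻¹
      rw [map_inv] at e
      rw [mul_assoc (b u), mul_assoc (b u), e, ← map_mul]
      rfl
  | succ j ih =>
    intro q hq
    rw [derivedSeries_succ, Subgroup.commutator_def] at hq
    induction hq using Subgroup.closure_induction with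
    | mem x hx =>
      obtain ⟨a, ha, c, hc, rfl⟩ := hx
      obtain ⟨va, hva, ya, hya, ea⟩ := ih a ha
      obtain ⟨vc, hvc, yc, hyc, ec⟩ := ih c hc
      refine ⟨⁅va, vc⁆, by rw [← hva, ← hvc]; rfl, ⁅ya, yc⁆, ?_, ?_⟩
      · rw [derivedSeries_succ _ (j + 1)]
        exact Subgroup.commutator_mem_commutator hya hyc
      · rw [map_commutatorElement, ← ea, ← ec]
        exact map_commutatorElement (wreath p b s).subtype ya yc
    | one => exact ⟨1, rfl, 1, one_mem _, by rw [map_one]; rfl⟩
    | mul x y _ _ hx hy =>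
      obtain ⟨va, hva, ya, hya, ea⟩ := hx
      obtain ⟨vc, hvc, yc, hyc, ec⟩ := hy
      exact ⟨va * vc, by rw [Pi.mul_apply, hva, hvc], ya * yc, mul_mem hya hyc, by
        rw [Subgroup.coe_mul, ea, ec, map_mul]⟩
    | inv x _ hx =>
      obtain ⟨va, hva, ya, hya, ea⟩ := hx
      exact ⟨va⁻¹, by rw [Pi.inv_apply, hva], ya⁻¹, inv_mem hya, by
        rw [Subgroup.coe_inv, ea, map_inv]⟩

theorem wreath_derived_ne_bot (hconj : ∀ v, s * b v * s⁻¹ = b fun i => v (i - 1))
    (hb : Function.Injective b) {j : ℕ} (hQ : derivedSeries Q j ≠ ⊥) :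
    derivedSeries (wreath p b s) (j + 1) ≠ ⊥ := by
  intro h
  refine hQ (eq_bot_iff.2 fun q hq => ?_)
  obtain ⟨v, hv, y, hy, hyv⟩ := wreath_proj p b s hconj j q hq
  rw [h, Subgroup.mem_bot] at hy
  rw [hy, Subgroup.coe_one, eq_comm, ← map_one b] at hyv
  rw [Subgroup.mem_bot, ← hv, hb hyv]
  rfl

end Wreath

/-- `GL` of dimension `d` has a `p`-subgroup with nontrivial `j`-th derived subgroup. -/
def HasDL (p : ℕ) (F : Type*) [Field F] (d j : ℕ) : Prop :=
  ∃ Q : Subgroup ((Fin d → F) ≃ₗ[F] (Fin d → F)), IsPGroup p Q ∧ derivedSeries Q j ≠ ⊥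

variable (p : ℕ) [Fact p.Prime] {F : Type*} [Field F]

theorem hasDL_of {W : Type*} [AddCommGroup W] [Module F W] [FiniteDimensional F W] {d j : ℕ}
    (hd : Module.finrank F W = d) (Q : Subgroup (W ≃ₗ[F] W)) (hQ : IsPGroup p Q)
    (hj : derivedSeries Q j ≠ ⊥) : HasDL p F d j := by
  let φ : W ≃ₗ[F] (Fin d → F) := (Module.finBasisOfFinrankEq F W hd).equivFun
  let f : (W ≃ₗ[F] W) →* ((Fin d → F) ≃ₗ[F] (Fin d → F)) :=
    { toFun := fun g => (φ.symm.trans g).trans φ
      map_one' := LinearEquiv.ext fun x => φ.apply_symm_apply x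
      map_mul' := fun g h => LinearEquiv.ext fun x => by
        show φ (g (h (φ.symm x))) = φ (g (φ.symm (φ (h (φ.symm x)))))
        rw [LinearEquiv.symm_apply_apply] }
  have hf : Function.Injective f := fun g h e => LinearEquiv.ext fun x => φ.injective (by
    have := LinearEquiv.congr_fun e (φ x)
    simpa [f] using this)
  refine ⟨Q.map f, hQ.map f, fun h => hj ?_⟩
  have := map_derivedSeries_le_derivedSeries (Q.equivMapOfInjective f hf).toMonoidHom j
  rw [h, le_bot_iff] at this
  exact (Subgroup.map_eq_bot_iff_of_injective _ (Q.equivMapOfInjective f hf).injective).1 this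

theorem hasDL_succ [Finite F] {d j : ℕ} (h : HasDL p F d j) : HasDL p F (p * d) (j + 1) := by
  obtain ⟨Q, hQ, hj⟩ := h
  let b : (ZMod p → Q) →* ((ZMod p → Fin d → F) ≃ₗ[F] (ZMod p → Fin d → F)) :=
    { toFun := fun v => LinearEquiv.piCongrRight fun i => (v i : (Fin d → F) ≃ₗ[F] (Fin d → F))
      map_one' := LinearEquiv.ext fun x => rfl
      map_mul' := fun _ _ => LinearEquiv.ext fun x => rfl }
  let s : (ZMod p → Fin d → F) ≃ₗ[F] (ZMod p → Fin d → F) :=
    LinearEquiv.funCongrLeft F (Fin d → F) (Equiv.subRight (1 : ZMod p))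
  have hs : ∀ (m : ℕ) (x : ZMod p → Fin d → F), (s ^ m) x = fun i => x (i - m) := by
    intro m
    induction m with
    | zero => intro x; funext i; simp
    | succ m ih =>
      intro x
      rw [pow_succ']
      show s ((s ^ m) x) = _
      rw [ih]
      funext i
      show x (i - 1 - m) = x (i - ((m + 1 : ℕ) : ZMod p))
      push_cast
      congr 1
      abel
  have hsp : s ^ p = 1 := LinearEquiv.ext fun x => by
    rw [hs]
    funext i
    simp
  have hconj : ∀ v, s * b v * s⁻¹ = b fun i => v (i - 1) := by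
    intro v
    rw [mul_inv_eq_iff_eq_mul]
    exact LinearEquiv.ext fun x => rfl
  have hb : Function.Injective b := fun u v e => by
    funext i
    refine Subtype.ext (LinearEquiv.ext fun x => ?_)
    exact congrFun (LinearEquiv.congr_fun e (fun _ => x)) i
  haveI : Finite ((Fin d → F) ≃ₗ[F] (Fin d → F)) := Finite.of_injective _ DFunLike.coe_injective
  refine hasDL_of p ?_ _ (wreath_isPGroup p b s hQ hsp hconj)
    (wreath_derived_ne_bot p b s hconj hb hj)
  simp [Module.finrank_pi_fintype, ZMod.card]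

theorem hasDL_le {d n j : ℕ} (hdn : d ≤ n) (h : HasDL p F d j) : HasDL p F n j := by
  obtain ⟨Q, hQ, hj⟩ := h
  let f : ((Fin d → F) ≃ₗ[F] (Fin d → F)) →*
      (((Fin d → F) × (Fin (n - d) → F)) ≃ₗ[F] ((Fin d → F) × (Fin (n - d) → F))) :=
    { toFun := fun g => g.prodCongr (LinearEquiv.refl F _)
      map_one' := LinearEquiv.ext fun x => rfl
      map_mul' := fun g h => LinearEquiv.ext fun x => rfl }
  have hf : Function.Injective f := fun g h e => LinearEquiv.ext fun x =>
    congrArg Prod.fst (LinearEquiv.congr_fun e (x, 0))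
  refine hasDL_of p ?_ (Q.map f) (hQ.map f) fun h => hj ?_
  · rw [Module.finrank_prod, Module.finrank_fin_fun, Module.finrank_fin_fun]
    omega
  · have := map_derivedSeries_le_derivedSeries (Q.equivMapOfInjective f hf).toMonoidHom j
    rw [h, le_bot_iff] at this
    exact (Subgroup.map_eq_bot_iff_of_injective _ (Q.equivMapOfInjective f hf).injective).1 this

theorem hasDL_zero [Fintype F] (hq : ¬ p ∣ Fintype.card F) :
    HasDL p F (orderOf (Fintype.card F : ZMod p)) 0 := by
  classical
  set e := orderOf (Fintype.card F : ZMod p) with he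
  have hne : (Fintype.card F : ZMod p) ≠ 0 := by
    rwa [Ne, ZMod.natCast_eq_zero_iff]
  have he0 : 0 < e := by
    rw [he, orderOf_pos_iff, isOfFinOrder_iff_pow_eq_one]
    exact ⟨p - 1, Nat.sub_pos_of_lt (Fact.out : p.Prime).one_lt,
      ZMod.pow_card_sub_one_eq_one hne⟩
  have hdvd : p ∣ Nat.card ((Fin e → F) ≃ₗ[F] (Fin e → F)) := by
    have h1 : Nat.card ((Fin e → F) ≃ₗ[F] (Fin e → F)) = Nat.card (GL (Fin e) F) := by
      rw [Nat.card_congr (LinearMap.GeneralLinearGroup.generalLinearEquiv F (Fin e → F)).toEquiv.symm,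
        Nat.card_congr (Matrix.GeneralLinearGroup.toLin (n := Fin e) (R := F)).toEquiv]
    rw [h1, Matrix.card_GL_field]
    refine dvd_trans ?_ (Finset.dvd_prod_of_mem _ (Finset.mem_univ (⟨0, he0⟩ : Fin e)))
    rw [← ZMod.natCast_eq_zero_iff, Nat.cast_sub
      (by simpa using Nat.one_le_pow e (Fintype.card F) Fintype.card_pos)]
    simp [he, pow_orderOf_eq_one]
  haveI : Finite ((Fin e → F) ≃ₗ[F] (Fin e → F)) := Finite.of_injective _ DFunLike.coe_injective
  obtain ⟨g, hg⟩ := exists_prime_orderOf_dvd_card' p hdvd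
  refine ⟨Subgroup.zpowers g, IsPGroup.of_card (n := 1) (by rw [Nat.card_zpowers, hg, pow_one]), ?_⟩
  rw [derivedSeries_zero]
  intro h
  have := congrArg (fun S : Subgroup (Subgroup.zpowers g) => Nat.card S) h
  simp only [Subgroup.card_top, Subgroup.card_bot, Nat.card_zpowers, hg] at this
  exact (Fact.out : p.Prime).ne_one this

theorem hasDL_iter [Fintype F] (hq : ¬ p ∣ Fintype.card F) :
    ∀ k, HasDL p F (p ^ k * orderOf (Fintype.card F : ZMod p)) k := by
  intro k
  induction k with
  | zero => rw [pow_zero, one_mul]; exact hasDL_zero p hq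
  | succ k ih => rw [pow_succ', mul_assoc]; exact hasDL_succ p ih

end Cfsg.Agent.LinearPGroupDL
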