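import Mathlib
import Cfsg.Agent.LinearPGroupDL.Main

/-!
The derived length bound with the logarithm to base `p`, in characteristic different from `p`.
-/

set_option autoImplicit false

namespace Cfsg.Agent.LinearPGroupDL

open scoped commutatorElement
open Polynomial

universe u v w

/-- Characteristic different from `p`, algebraically closed field. -/
theorem main_coprime_log {F : Type u} [Field F] [IsAlgClosed F] {p : ℕ} [Fact p.Prime]
    (hpF : (p : F) ≠ 0) :
    ∀ (n : ℕ) (P : Type v) [Group P] [Finite P], IsPGroup p P →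
      ∀ (V : Type w) [AddCommGroup V] [Module F V] [FiniteDimensional F V],
        Module.finrank F V = n → ∀ ρ : P →* Module.End F V,
          ∀ x ∈ derivedSeries P (Nat.log p n + 1), ρ x = 1 := by
  intro n
  induction n using Nat.strong_induction_on with
  | _ n ih =>
  intro P _ _ hP V _ _ _ hn ρ x hx
  by_cases hred : ∃ W : Submodule F V, W ≠ ⊥ ∧ W ≠ ⊤ ∧ ∀ g, ∀ v ∈ W, ρ g v ∈ W
  · obtain ⟨W, hW0, hW1, hW⟩ := hred
    have hlt : Module.finrank F W < n := hn ▸ Submodule.finrank_lt hW1
    have hpos : 0 < Module.finrank F W := Submodule.one_le_finrank_iff.2 hW0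
    have hlt' : Module.finrank F (V ⧸ W) < n := by
      have := W.finrank_quotient_add_finrank
      omega
    have hmono : ∀ m, m < n →
        derivedSeries P (Nat.log p n + 1) ≤ derivedSeries P (Nat.log p m + 1) :=
      fun m hm => derivedSeries_antitone P (by have := Nat.log_mono_right (b := p) hm.le; omega)
    have h1 := ih _ hlt P hP W rfl (restrictRep ρ W hW) x (hmono _ hlt hx)
    have h2 := ih _ hlt' P hP (V ⧸ W) rfl (quotientRep ρ W hW) x (hmono _ hlt' hx)
    refine eq_one_of_fixes hpF hP ρ W (fun v hv => ?_) (fun v => ?_)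
    · have := congrArg (fun f : Module.End F W => ((f ⟨v, hv⟩ : W) : V)) h1
      simpa using this
    · have := congrArg (fun f : Module.End F (V ⧸ W) => f (Submodule.Quotient.mk v)) h2
      simpa [Submodule.Quotient.eq] using this
  push Not at hred
  -- the irreducible case
  by_cases hab : ∀ a b : P, ρ (a * b) = ρ (b * a)
  · have hle : commutator P ≤ ρ.ker := by
      rw [commutator_def, Subgroup.commutator_le]
      intro a _ b _
      rw [MonoidHom.mem_ker, commutatorElement_def,
        show a * b * a⁻¹ * b⁻¹ = a * b * (b * a)⁻¹ by group, map_mul, hab a b, ← map_mul,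
        mul_inv_cancel, map_one]
    refine hle ?_
    have := derivedSeries_antitone P (show 1 ≤ Nat.log p n + 1 by omega) hx
    rwa [derivedSeries_succ, derivedSeries_zero] at this
  -- the elements acting as scalars
  let S : Subgroup P :=
    { carrier := {g | ∃ c : F, c ≠ 0 ∧ ρ g = c • 1}
      one_mem' := ⟨1, one_ne_zero, by simp⟩
      mul_mem' := by
        rintro a b ⟨c, hc, ha⟩ ⟨d, hd, hb⟩
        exact ⟨c * d, mul_ne_zero hc hd, by rw [map_mul, ha, hb, smul_mul_smul_comm, one_mul]⟩
      inv_mem' := by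
        rintro a ⟨c, hc, ha⟩
        refine ⟨c⁻¹, inv_ne_zero hc, ?_⟩
        calc ρ a⁻¹ = c⁻¹ • (ρ a⁻¹ * (c • 1)) := by
              rw [mul_smul_comm, mul_one, smul_smul, inv_mul_cancel₀ hc, one_smul]
          _ = c⁻¹ • 1 := by rw [← ha, ← map_mul, inv_mul_cancel, map_one] }
  haveI hSn : S.Normal := ⟨by
    rintro a ⟨c, hc, ha⟩ g
    refine ⟨c, hc, ?_⟩
    rw [map_mul, map_mul, ha, mul_smul_comm, mul_one, smul_mul_assoc, ← map_mul, mul_inv_cancel,
      map_one]⟩
  haveI : Nontrivial (P ⧸ S) := by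
    rw [QuotientGroup.nontrivial_iff]
    intro hS
    apply hab
    intro a b
    obtain ⟨c, -, ha⟩ : a ∈ S := by rw [hS]; trivial
    rw [map_mul, map_mul, ha, smul_mul_assoc, mul_smul_comm, one_mul, mul_one]
  haveI := (hP.to_quotient S).center_nontrivial
  obtain ⟨⟨z, hz⟩, hz1⟩ := exists_ne (1 : Subgroup.center (P ⧸ S))
  obtain ⟨a, rfl⟩ := QuotientGroup.mk'_surjective S z
  have haS : a ∉ S := fun h => hz1 (Subtype.ext ((QuotientGroup.eq_one_iff a).2 h))
  have hcS : ∀ g, a * g * a⁻¹ * g⁻¹ ∈ S := by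
    intro g
    refine (QuotientGroup.eq_one_iff _).1 ?_
    have h : QuotientGroup.mk' S g * QuotientGroup.mk' S a =
        QuotientGroup.mk' S a * QuotientGroup.mk' S g :=
      Subgroup.mem_center_iff.1 hz (QuotientGroup.mk' S g)
    show QuotientGroup.mk' S (a * g * a⁻¹ * g⁻¹) = 1
    rw [map_mul, map_mul, map_mul, map_inv, map_inv, ← h]
    group
  -- the stabilizer of the eigenspaces of `a`
  let C : Subgroup P :=
    { carrier := {g | ρ (g * a) = ρ (a * g)}
      one_mem' := by simp
      mul_mem' := by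
        intro b c hb hc
        have hb' : ρ b * ρ a = ρ a * ρ b := by rw [← map_mul, ← map_mul]; exact hb
        have hc' : ρ c * ρ a = ρ a * ρ c := by rw [← map_mul, ← map_mul]; exact hc
        show ρ (b * c * a) = ρ (a * (b * c))
        simp only [map_mul]
        rw [mul_assoc, hc', ← mul_assoc, hb', mul_assoc]
      inv_mem' := by
        intro b hb
        have hb' : ρ (b * a) = ρ (a * b) := hb
        show ρ (b⁻¹ * a) = ρ (a * b⁻¹)
        calc ρ (b⁻¹ * a) = ρ b⁻¹ * ρ (a * b) * ρ b⁻¹ := by
              rw [← map_mul, ← map_mul]; congr 1; group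
          _ = ρ b⁻¹ * ρ (b * a) * ρ b⁻¹ := by rw [hb']
          _ = ρ (a * b⁻¹) := by rw [← map_mul, ← map_mul]; congr 1; group }
  have hcomm : commutator P ≤ C := by
    rw [commutator_def, Subgroup.commutator_le]
    intro g _ h _
    obtain ⟨c, hc, hg⟩ := hcS g
    obtain ⟨d, hd, hh⟩ := hcS h
    have e : ∀ (u : P) (r : F), ρ (a * u * a⁻¹ * u⁻¹) = r • 1 → ρ a * ρ u = r • (ρ u * ρ a) := by
      intro u r hr
      calc ρ a * ρ u = ρ (a * u * a⁻¹ * u⁻¹) * (ρ u * ρ a) := by
            rw [← map_mul, ← map_mul, ← map_mul]; congr 1; group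
        _ = r • (ρ u * ρ a) := by rw [hr, smul_mul_assoc, one_mul]
    have eg := e g c hg
    have eh := e h d hh
    have eg' : ρ a * ρ g⁻¹ = c⁻¹ • (ρ g⁻¹ * ρ a) := by
      have h1 : ρ g⁻¹ * (ρ a * ρ g) * ρ g⁻¹ = ρ g⁻¹ * (c • (ρ g * ρ a)) * ρ g⁻¹ := by rw [eg]
      rw [mul_smul_comm, smul_mul_assoc, ← map_mul, ← map_mul, ← map_mul, ← map_mul, ← map_mul,
        ← map_mul, show g⁻¹ * (a * g) * g⁻¹ = g⁻¹ * a by group,
        show g⁻¹ * (g * a) * g⁻¹ = a * g⁻¹ by group, map_mul, map_mul] at h1
      rw [h1, smul_smul, inv_mul_cancel₀ hc, one_smul]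
    have eh' : ρ a * ρ h⁻¹ = d⁻¹ • (ρ h⁻¹ * ρ a) := by
      have h1 : ρ h⁻¹ * (ρ a * ρ h) * ρ h⁻¹ = ρ h⁻¹ * (d • (ρ h * ρ a)) * ρ h⁻¹ := by rw [eh]
      rw [mul_smul_comm, smul_mul_assoc, ← map_mul, ← map_mul, ← map_mul, ← map_mul, ← map_mul,
        ← map_mul, show h⁻¹ * (a * h) * h⁻¹ = h⁻¹ * a by group,
        show h⁻¹ * (h * a) * h⁻¹ = a * h⁻¹ by group, map_mul, map_mul] at h1
      rw [h1, smul_smul, inv_mul_cancel₀ hd, one_smul]
    show ρ (⁅g, h⁆ * a) = ρ (a * ⁅g, h⁆)
    rw [commutatorElement_def]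
    simp only [map_mul]
    symm
    calc ρ a * (ρ g * ρ h * ρ g⁻¹ * ρ h⁻¹)
        = (ρ a * ρ g) * ρ h * ρ g⁻¹ * ρ h⁻¹ := by simp only [mul_assoc]
      _ = c • (ρ g * (ρ a * ρ h) * ρ g⁻¹ * ρ h⁻¹) := by
          rw [eg]; simp only [smul_mul_assoc, mul_assoc]
      _ = (c * d) • (ρ g * ρ h * (ρ a * ρ g⁻¹) * ρ h⁻¹) := by
          rw [eh]; simp only [smul_mul_assoc, mul_smul_comm, smul_smul, mul_assoc]
      _ = (c * d * c⁻¹) • (ρ g * ρ h * ρ g⁻¹ * (ρ a * ρ h⁻¹)) := by
          rw [eg']; simp only [smul_mul_assoc, mul_smul_comm, smul_smul, mul_assoc]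
      _ = (c * d * c⁻¹ * d⁻¹) • (ρ g * ρ h * ρ g⁻¹ * ρ h⁻¹ * ρ a) := by
          rw [eh']; simp only [smul_mul_assoc, mul_smul_comm, smul_smul, mul_assoc]
      _ = _ := by
          rw [show c * d * c⁻¹ * d⁻¹ = 1 by field_simp, one_smul]
  haveI hCn : C.Normal := ⟨fun b hb g => by
    have h : ⁅g, b⁆ ∈ C := hcomm (Subgroup.commutator_mem_commutator (Subgroup.mem_top g)
      (Subgroup.mem_top b))
    simpa [commutatorElement_def, mul_assoc] using C.mul_mem h hb⟩
  haveI : Nontrivial V := by
    by_contra hV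
    rw [not_nontrivial_iff_subsingleton] at hV
    exact hab fun b c => LinearMap.ext fun v => Subsingleton.elim _ _
  obtain ⟨ζ, hζ⟩ := Module.End.exists_eigenvalue (ρ a)
  have hζ0 : ζ ≠ 0 := by
    rintro rfl
    obtain ⟨v, hv⟩ := hζ.exists_hasEigenvector
    have h1 := hv.apply_eq_smul
    rw [zero_smul] at h1
    exact hv.2 (by rw [← rep_inv_apply ρ a v, h1, map_zero])
  set E := Module.End.eigenspace (ρ a) ζ with hE
  have hEC : ∀ g ∈ C, ∀ v ∈ E, ρ g v ∈ E := by
    intro g hg v hv
    rw [hE, Module.End.mem_eigenspace_iff] at hv ⊢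
    have : ρ a * ρ g = ρ g * ρ a := by rw [← map_mul, ← map_mul]; exact hg.symm
    rw [← Module.End.mul_apply, this, Module.End.mul_apply, hv, map_smul]
  have hEtop : E ≠ ⊤ := fun h => haS ⟨ζ, hζ0, LinearMap.ext fun v => by
    have : v ∈ E := by rw [h]; trivial
    rw [hE, Module.End.mem_eigenspace_iff] at this
    simpa using this⟩
  set W := E with hWdef
  have hW0 : W ≠ ⊥ := hζ
  have hWtop : W ≠ ⊤ := hEtop
  have hWC := hEC
  have hT : ∀ (g : P), ∀ b ∈ C, ∀ v ∈ W.map (ρ g), ρ b v ∈ W.map (ρ g) := by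
    rintro g b hb _ ⟨v, hv, rfl⟩
    refine ⟨ρ (g⁻¹ * b * g) v, hWC _ (by simpa using hCn.conj_mem b hb g⁻¹) v hv, ?_⟩
    rw [← Module.End.mul_apply, ← map_mul, ← Module.End.mul_apply, ← map_mul]
    congr 2
    group
  -- `p` different eigenvalues
  have hcex : ∀ g, ∃ c : F, c ≠ 0 ∧ ρ a * ρ g = c • (ρ g * ρ a) := by
    intro g
    obtain ⟨c, hc, hg⟩ := hcS g
    refine ⟨c, hc, ?_⟩
    calc ρ a * ρ g = ρ (a * g * a⁻¹ * g⁻¹) * (ρ g * ρ a) := by
          rw [← map_mul, ← map_mul, ← map_mul]; congr 1; group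
      _ = c • (ρ g * ρ a) := by rw [hg, smul_mul_assoc, one_mul]
  choose c hc0 hc using hcex
  have hC1 : ∀ g, c g = 1 → g ∈ C := by
    intro g hg
    show ρ (g * a) = ρ (a * g)
    rw [map_mul, map_mul, hc g, hg, one_smul]
  have heig : ∀ g, W.map (ρ g) ≤ Module.End.eigenspace (ρ a) (c g * ζ) := by
    rintro g _ ⟨v, hv, rfl⟩
    rw [hWdef, SetLike.mem_coe, Module.End.mem_eigenspace_iff] at hv
    rw [Module.End.mem_eigenspace_iff, ← Module.End.mul_apply, hc g, LinearMap.smul_apply,
      Module.End.mul_apply, hv, map_smul, smul_smul]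
  have hinj : ∀ g, Function.Injective (ρ g) := fun g =>
    Function.LeftInverse.injective (rep_inv_apply ρ g)
  have hdim : ∀ g, Module.finrank F (W.map (ρ g)) = Module.finrank F W := fun g =>
    (Submodule.equivMapOfInjective _ (hinj g) W).finrank_eq.symm
  have hCtop : C ≠ ⊤ := by
    intro h
    obtain ⟨g, v, hv, hgv⟩ := hred W hW0 hWtop
    exact hgv (hWC g (h ▸ Subgroup.mem_top g) v hv)
  have hindex : p ∣ C.index := by
    obtain ⟨k, hk⟩ := hP.index C
    rw [hk]
    refine dvd_pow_self p ?_
    rintro rfl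
    exact hCtop (Subgroup.index_eq_one.1 (by rw [hk, pow_zero]))
  let rep : P ⧸ C → P := Quotient.out
  have hcinj : Function.Injective fun r : P ⧸ C => c (rep r) * ζ := by
    intro r r' h
    have h1 : c (rep r) = c (rep r') := mul_right_cancel₀ hζ0 h
    have h2 : (rep r)⁻¹ * rep r' ∈ C := by
      set g := rep r; set g' := rep r'
      show ρ (g⁻¹ * g' * a) = ρ (a * (g⁻¹ * g'))
      have e1 := hc g
      have e2 := hc g'
      rw [h1] at e1
      calc ρ (g⁻¹ * g' * a) = (c g')⁻¹ • (ρ g⁻¹ * (c g' • (ρ g' * ρ a))) := by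
            rw [mul_smul_comm, smul_smul, inv_mul_cancel₀ (hc0 g'), one_smul, map_mul, map_mul,
              mul_assoc]
        _ = (c g')⁻¹ • (ρ g⁻¹ * (ρ a * ρ g')) := by rw [e2]
        _ = (c g')⁻¹ • (ρ g⁻¹ * (ρ a * ρ g) * (ρ g⁻¹ * ρ g')) := by
            simp only [← map_mul]; congr 2; group
        _ = (c g')⁻¹ • (ρ g⁻¹ * (c g' • (ρ g * ρ a)) * (ρ g⁻¹ * ρ g')) := by rw [e1]
        _ = ρ (a * (g⁻¹ * g')) := by
            rw [mul_smul_comm, smul_mul_assoc, smul_smul, inv_mul_cancel₀ (hc0 g'), one_smul]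
            simp only [← map_mul]; congr 1; group
    rw [← Quotient.out_eq' r, ← Quotient.out_eq' r']
    exact QuotientGroup.eq.2 h2
  have htwo : Module.finrank F W * p ≤ n := by
    classical
    haveI : Fintype (P ⧸ C) := Fintype.ofFinite _
    have hind : iSupIndep fun r : P ⧸ C => W.map (ρ (rep r)) :=
      ((Module.End.eigenspaces_iSupIndep (ρ a)).comp hcinj).mono fun r => heig _
    have hsum : ∀ s : Finset (P ⧸ C), Module.finrank F
        (s.sup fun r => W.map (ρ (rep r)) : Submodule F V) = s.card * Module.finrank F W := by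
      intro s
      induction s using Finset.induction_on with
      | empty => simp
      | insert r s hr ihs =>
        have hdis : (W.map (ρ (rep r))) ⊓ (s.sup fun r => W.map (ρ (rep r))) = ⊥ :=
          disjoint_iff.1 ((hind r).mono_right (Finset.sup_le fun j hj =>
            le_iSup₂_of_le j (by rintro rfl; exact hr hj) le_rfl))
        have h1 := Submodule.finrank_sup_add_finrank_inf_eq (W.map (ρ (rep r)))
          (s.sup fun r => W.map (ρ (rep r)))
        rw [hdis, finrank_bot, add_zero, ihs, hdim] at h1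
        rw [Finset.sup_insert, h1, Finset.card_insert_of_notMem hr]
        ring
    have h2 := Submodule.finrank_le
      (Finset.univ.sup fun r => W.map (ρ (rep r)) : Submodule F V)
    rw [hsum, Finset.card_univ, ← Nat.card_eq_fintype_card, ← Subgroup.index, hn] at h2
    calc Module.finrank F W * p ≤ Module.finrank F W * C.index :=
          Nat.mul_le_mul_left _ (Nat.le_of_dvd (Nat.pos_of_ne_zero
            Subgroup.index_ne_zero_of_finite) hindex)
      _ ≤ n := by rw [mul_comm]; exact h2
  have hpos : 0 < Module.finrank F W := Submodule.one_le_finrank_iff.2 hW0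
  have hlog : Nat.log p (Module.finrank F W) + 1 ≤ Nat.log p n := by
    have := Nat.log_mono_right (b := p) htwo
    rwa [Nat.log_mul_base (Fact.out : p.Prime).one_lt hpos.ne'] at this
  -- the derived subgroup fixes every translate
  obtain ⟨y, hy, rfl⟩ := derivedSeries_succ_le_map C hcomm (Nat.log p (Module.finrank F W) + 1)
    (derivedSeries_antitone P (by omega) hx)
  have hfix : ∀ (h : P), ∀ v ∈ W.map (ρ h), ρ (y : P) v = v := by
    intro h v hv
    have hd : Module.finrank F (W.map (ρ h)) = Module.finrank F W :=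
      (Submodule.equivMapOfInjective _
        (Function.LeftInverse.injective (rep_inv_apply ρ h)) W).finrank_eq.symm
    have h1 := ih _ (by have := Submodule.finrank_lt hWtop; omega) C (hP.to_subgroup C) (W.map (ρ h)) rfl
      (restrictRep (ρ.comp C.subtype) _ (fun b => hT h b b.2)) y (by rw [hd]; exact hy)
    have := congrArg (fun f : Module.End F (W.map (ρ h)) => ((f ⟨v, hv⟩ : W.map (ρ h)) : V)) h1
    exact this
  set U := ⨆ h : P, W.map (ρ h) with hU
  have hUinv : ∀ b : P, ∀ v ∈ U, ρ b v ∈ U := by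
    intro b v hv
    have : U.map (ρ b) ≤ U := by
      rw [hU, Submodule.map_iSup]
      refine iSup_le fun h => ?_
      rw [← Submodule.map_comp]
      refine le_iSup_of_le (b * h) (le_of_eq ?_)
      rw [map_mul]
      rfl
    exact this (Submodule.mem_map_of_mem hv)
  have hUtop : U = ⊤ := by
    by_contra h
    have hU0 : U ≠ ⊥ := fun h0 => hW0 (le_bot_iff.1 (h0 ▸ le_iSup_of_le (1 : P) (by
      rw [map_one]; exact le_of_eq (Submodule.map_id W).symm)))
    obtain ⟨b, v, hv, hbv⟩ := hred U hU0 h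
    exact hbv (hUinv b v hv)
  refine LinearMap.ext fun v => ?_
  have hle : U ≤ LinearMap.eqLocus (ρ (y : P)) 1 := iSup_le fun h v hv => hfix h v hv
  exact hle (hUtop ▸ Submodule.mem_top)

/-- The bound for a representation in characteristic different from `p`. -/
theorem main_field_log {F : Type u} [Field F] {P : Type v} [Group P] [Finite P] {p : ℕ} [Fact p.Prime]
    (hpF : (p : F) ≠ 0) (hP : IsPGroup p P) {V : Type w} [AddCommGroup V] [Module F V] [FiniteDimensional F V]
    (ρ : P →* Module.End F V) {x : P}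
    (hx : x ∈ derivedSeries P (Nat.log p (Module.finrank F V) + 1)) : ρ x = 1 := by
  let K := AlgebraicClosure F
  let b := Module.finBasis F V
  let f : Matrix (Fin (Module.finrank F V)) (Fin (Module.finrank F V)) F →+*
      Matrix (Fin (Module.finrank F V)) (Fin (Module.finrank F V)) K := (algebraMap F K).mapMatrix
  let g : Module.End F V →* Module.End K (Fin (Module.finrank F V) → K) :=
    ((Matrix.toLinAlgEquiv' (R := K) (n := Fin (Module.finrank F V))).toAlgHom.toRingHom.toMonoidHom.comp
      f.toMonoidHom).comp (LinearMap.toMatrixAlgEquiv b).toAlgHom.toRingHom.toMonoidHom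
  have hg : Function.Injective g := by
    intro a c h
    have h1 : f (LinearMap.toMatrixAlgEquiv b a) = f (LinearMap.toMatrixAlgEquiv b c) :=
      (Matrix.toLinAlgEquiv' (R := K) (n := Fin (Module.finrank F V))).injective h
    exact (LinearMap.toMatrixAlgEquiv b).injective (Matrix.map_injective (algebraMap F K).injective h1)
  have hdim : Module.finrank K (Fin (Module.finrank F V) → K) = Module.finrank F V :=
    Module.finrank_fin_fun K
  refine hg ?_
  rw [map_one]
  have hp : (p : K) ≠ 0 := fun h => hpF ((algebraMap F K).injective (by rw [map_natCast, h, map_zero]))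
  exact main_coprime_log hp _ P hP _ hdim (g.comp ρ) x hx

/-- Over the field of `q` elements the degree may be divided by the order of `q` modulo `p`. -/
theorem main_finite_field_log {F : Type u} [Field F] [Fintype F] {p : ℕ} [Fact p.Prime]
    (hpq : ¬ p ∣ Fintype.card F) :
    ∀ (n : ℕ) (P : Type v) [Group P] [Finite P], IsPGroup p P →
      ∀ (V : Type w) [AddCommGroup V] [Module F V] [FiniteDimensional F V],
        Module.finrank F V = n → ∀ ρ : P →* Module.End F V,
          ∀ x ∈ derivedSeries P (Nat.log p (n / orderOf (Fintype.card F : ZMod p)) + 1),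
            ρ x = 1 := by
  set e := orderOf (Fintype.card F : ZMod p) with he
  have hpF : (p : F) ≠ 0 := by
    intro h
    haveI : CharP F p := (CharP.charP_iff_prime_eq_zero Fact.out).2 h
    obtain ⟨k, _, hk⟩ := FiniteField.card F p
    exact hpq (hk ▸ dvd_pow_self p k.pos.ne')
  intro n
  induction n using Nat.strong_induction_on with
  | _ n ih =>
  intro P _ _ hP V _ _ _ hn ρ x hx
  by_cases hred : ∃ W : Submodule F V, W ≠ ⊥ ∧ W ≠ ⊤ ∧ ∀ g, ∀ v ∈ W, ρ g v ∈ W
  · obtain ⟨W, hW0, hW1, hW⟩ := hred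
    have hlt : Module.finrank F W < n := hn ▸ Submodule.finrank_lt hW1
    have hpos : 0 < Module.finrank F W := Submodule.one_le_finrank_iff.2 hW0
    have hlt' : Module.finrank F (V ⧸ W) < n := by
      have := W.finrank_quotient_add_finrank
      omega
    have hmono : ∀ m, m < n →
        derivedSeries P (Nat.log p (n / e) + 1) ≤ derivedSeries P (Nat.log p (m / e) + 1) :=
      fun m hm => derivedSeries_antitone P (by
        have := Nat.log_mono_right (b := p) (Nat.div_le_div_right (c := e) hm.le)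
        omega)
    have h1 := ih _ hlt P hP W rfl (restrictRep ρ W hW) x (hmono _ hlt hx)
    have h2 := ih _ hlt' P hP (V ⧸ W) rfl (quotientRep ρ W hW) x (hmono _ hlt' hx)
    refine eq_one_of_fixes hpF hP ρ W (fun v hv => ?_) (fun v => ?_)
    · have := congrArg (fun f : Module.End F W => ((f ⟨v, hv⟩ : W) : V)) h1
      simpa using this
    · have := congrArg (fun f : Module.End F (V ⧸ W) => f (Submodule.Quotient.mk v)) h2
      simpa [Submodule.Quotient.eq] using this
  push Not at hred
  by_cases htriv : ∀ g, ρ g = 1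
  · exact htriv x
  push Not at htriv
  obtain ⟨g₀, hg₀⟩ := htriv
  -- a central element of order `p` of the image
  haveI : Nontrivial (P ⧸ ρ.ker) := by
    rw [QuotientGroup.nontrivial_iff]
    intro h
    exact hg₀ ((MonoidHom.mem_ker).1 (h ▸ Subgroup.mem_top g₀))
  haveI := (hP.to_quotient ρ.ker).center_nontrivial
  have hpc : p ∣ Nat.card (Subgroup.center (P ⧸ ρ.ker)) := by
    obtain ⟨k, hk⟩ := IsPGroup.iff_card.1 ((hP.to_quotient ρ.ker).to_subgroup (Subgroup.center _))
    have : 1 < Nat.card (Subgroup.center (P ⧸ ρ.ker)) := Finite.one_lt_card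
    rw [hk] at this ⊢
    exact dvd_pow_self p (by rintro rfl; simp at this)
  obtain ⟨⟨z', hz'⟩, hzo⟩ := exists_prime_orderOf_dvd_card' p hpc
  obtain ⟨z, rfl⟩ := QuotientGroup.mk'_surjective ρ.ker z'
  have hz1 : ρ z ≠ 1 := by
    intro h
    have : (⟨QuotientGroup.mk' ρ.ker z, hz'⟩ : Subgroup.center (P ⧸ ρ.ker)) = 1 :=
      Subtype.ext ((QuotientGroup.eq_one_iff z).2 h)
    rw [this, orderOf_one] at hzo
    exact (Fact.out : p.Prime).ne_one hzo.symm
  have hzp : ρ z ^ p = 1 := by
    rw [← map_pow]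
    refine MonoidHom.mem_ker.1 ((QuotientGroup.eq_one_iff (N := ρ.ker) (z ^ p)).1 ?_)
    have := congrArg Subtype.val (hzo ▸ pow_orderOf_eq_one
      (⟨QuotientGroup.mk' ρ.ker z, hz'⟩ : Subgroup.center (P ⧸ ρ.ker)))
    simpa using this
  have hcomm : ∀ g, Commute (ρ g) (ρ z) := by
    intro g
    have h : QuotientGroup.mk' ρ.ker (g * z) = QuotientGroup.mk' ρ.ker (z * g) := by
      rw [map_mul, map_mul]
      exact Subgroup.mem_center_iff.1 hz' _
    have h1 : (g * z)⁻¹ * (z * g) ∈ ρ.ker := QuotientGroup.eq.1 h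
    show ρ g * ρ z = ρ z * ρ g
    rw [← map_mul, ← map_mul]
    calc ρ (g * z) = ρ (g * z) * ρ ((g * z)⁻¹ * (z * g)) := by
          rw [MonoidHom.mem_ker.1 h1, mul_one]
      _ = ρ (z * g) := by rw [← map_mul]; congr 1; group
  set T := ρ z with hT
  haveI : Nontrivial V := by
    by_contra hV
    rw [not_nontrivial_iff_subsingleton] at hV
    exact hz1 (LinearMap.ext fun v => Subsingleton.elim _ _)
  -- an irreducible polynomial annihilating `T`
  obtain ⟨h, hirr, hdvd⟩ : ∃ h : F[X], Irreducible h ∧ h ∣ minpoly F T :=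
    WfDvdMonoid.exists_irreducible_factor (minpoly.not_isUnit F T)
      (minpoly.ne_zero (Algebra.IsIntegral.isIntegral T))
  have hker : aeval T h = 0 := by
    set W := LinearMap.ker (aeval T h) with hW
    have hWinv : ∀ g, ∀ v ∈ W, ρ g v ∈ W := by
      intro g v hv
      rw [hW, LinearMap.mem_ker] at hv ⊢
      have hc : Commute (ρ g) (aeval T h) := by
        rw [aeval_eq_sum_range]
        exact Commute.sum_right _ _ _ fun i _ => ((hcomm g).pow_right i).smul_right _
      rw [← Module.End.mul_apply, ← hc.eq, Module.End.mul_apply, hv, map_zero]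
    have hW0 : W ≠ ⊥ := by
      intro h0
      obtain ⟨r, hr⟩ := hdvd
      have hr0 : aeval T r = 0 := by
        refine LinearMap.ext fun v => (LinearMap.ker_eq_bot.1 h0) ?_
        rw [← Module.End.mul_apply, ← map_mul, ← hr, minpoly.aeval]
        simp
      have hrne : r ≠ 0 := fun h' => minpoly.ne_zero (Algebra.IsIntegral.isIntegral T)
        (by rw [hr, h', mul_zero])
      have hd := natDegree_le_of_dvd (minpoly.dvd F T hr0) hrne
      rw [hr, natDegree_mul hirr.ne_zero hrne] at hd
      have := hirr.natDegree_pos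
      omega
    have hWtop : W = ⊤ := by
      by_contra htop
      obtain ⟨g, v, hv, hgv⟩ := hred W hW0 htop
      exact hgv (hWinv g v hv)
    exact LinearMap.ker_eq_top.1 hWtop
  haveI : Fact (Irreducible h) := ⟨hirr⟩
  let φ : AdjoinRoot h →ₐ[F] Module.End F V :=
    Ideal.Quotient.liftₐ (Ideal.span {h}) (aeval T) (fun a ha => by
      obtain ⟨c, rfl⟩ := Ideal.mem_span_singleton'.1 ha
      rw [map_mul, hker, mul_zero])
  have hφmk : ∀ f, φ (AdjoinRoot.mk h f) = aeval T f := fun f => rfl
  have hφroot : φ (AdjoinRoot.root h) = T := by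
    rw [← AdjoinRoot.mk_X, hφmk, aeval_X]
  letI : Module (AdjoinRoot h) V := Module.compHom V φ.toRingHom
  haveI : IsScalarTower F (AdjoinRoot h) V := ⟨fun a k v => by
    show φ (a • k) v = a • φ k v
    rw [map_smul]
    rfl⟩
  haveI : FiniteDimensional (AdjoinRoot h) V := Module.Finite.of_restrictScalars_finite F _ _
  haveI : Module.Finite F (AdjoinRoot h) := (AdjoinRoot.powerBasis hirr.ne_zero).finite
  haveI : Finite (AdjoinRoot h) := Module.finite_of_finite F
  haveI : Fintype (AdjoinRoot h) := Fintype.ofFinite _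
  -- the degree of `h` is a multiple of `e`
  have hdeg : e ∣ Module.finrank F (AdjoinRoot h) := by
    have hr1 : AdjoinRoot.root h ^ p = 1 := φ.toRingHom.injective (by
      show φ (AdjoinRoot.root h ^ p) = φ 1
      rw [map_pow, hφroot, map_one, hzp])
    have hrne : AdjoinRoot.root h ≠ 1 := fun hr => hz1 (by rw [← hφroot, hr, map_one])
    have hord : orderOf (AdjoinRoot.root h) = p := orderOf_eq_prime hr1 hrne
    have hr0 : AdjoinRoot.root h ≠ 0 := fun hr0 => by
      rw [hr0, zero_pow (Fact.out : p.Prime).ne_zero] at hr1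
      exact zero_ne_one hr1
    have h1 : p ∣ Fintype.card (AdjoinRoot h) - 1 := by
      conv_lhs => rw [← hord]
      exact orderOf_dvd_of_pow_eq_one (FiniteField.pow_card_sub_one_eq_one _ hr0)
    rw [Module.card_eq_pow_finrank (K := F)] at h1
    rw [he, orderOf_dvd_iff_pow_eq_one]
    obtain ⟨c, hc⟩ := h1
    have hpow : Fintype.card F ^ Module.finrank F (AdjoinRoot h) = p * c + 1 := by
      have := Nat.one_le_pow (Module.finrank F (AdjoinRoot h)) _ (Fintype.card_pos (α := F))
      omega
    rw [← Nat.cast_pow, hpow]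
    simp
  have hrank : Module.finrank (AdjoinRoot h) V ≤ n / e := by
    have h1 := Module.finrank_mul_finrank F (AdjoinRoot h) V
    rw [hn] at h1
    have he0 : 0 < Module.finrank F (AdjoinRoot h) := Module.finrank_pos
    have h2 : 0 < e := Nat.pos_of_ne_zero fun h0 => by
      rw [h0, zero_dvd_iff] at hdeg
      omega
    rw [Nat.le_div_iff_mul_le h2]
    calc Module.finrank (AdjoinRoot h) V * e
        ≤ Module.finrank (AdjoinRoot h) V * Module.finrank F (AdjoinRoot h) :=
          Nat.mul_le_mul_left _ (Nat.le_of_dvd he0 hdeg)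
      _ = n := by rw [mul_comm, h1]
  let σ : P →* Module.End (AdjoinRoot h) V :=
    { toFun := fun g =>
        { toFun := fun v => ρ g v
          map_add' := map_add (ρ g)
          map_smul' := fun k v => by
            show ρ g (φ k v) = φ k (ρ g v)
            obtain ⟨f, rfl⟩ := AdjoinRoot.mk_surjective k
            have hc : Commute (ρ g) (aeval T f) := by
              rw [aeval_eq_sum_range]
              exact Commute.sum_right _ _ _ fun i _ => ((hcomm g).pow_right i).smul_right _
            rw [hφmk, ← Module.End.mul_apply, hc.eq, Module.End.mul_apply] }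
      map_one' := LinearMap.ext fun v => by
        show ρ 1 v = v
        simp
      map_mul' := fun a b => LinearMap.ext fun v => by
        show ρ (a * b) v = ρ a (ρ b v)
        simp }
  have h3 := main_field_log (p := p) (fun h0 => hpF ((algebraMap F (AdjoinRoot h)).injective (by rw [map_natCast, h0, map_zero]))) hP σ (x := x) (derivedSeries_antitone P (by
    have := Nat.log_mono_right (b := p) hrank
    omega) hx)
  exact LinearMap.ext fun v => LinearMap.congr_fun h3 v

end Cfsg.Agent.LinearPGroupDL
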