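import Mathlib
import Cfsg.Agent.LinearPGroupDL.SylowUpper
import Cfsg.Agent.LinearPGroupDL.SylowLower

/-!
The derived length of a Sylow subgroup of a finite general linear group in cross characteristic.
-/

set_option autoImplicit false

namespace Cfsg.Agent.LinearPGroupDL

theorem sylow_derived_length (p : ℕ) [Fact p.Prime] (F : Type*) [Field F] [Fintype F]
    (hpq : ¬ p ∣ Fintype.card F) (n : ℕ) (hn : orderOf (Fintype.card F : ZMod p) ≤ n)
    (P : Sylow p (GL (Fin n) F)) :
    derivedSeries ↥(P : Subgroup (GL (Fin n) F))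
        (Nat.log p (n / orderOf (Fintype.card F : ZMod p)) + 1) = ⊥ ∧
      derivedSeries ↥(P : Subgroup (GL (Fin n) F))
        (Nat.log p (n / orderOf (Fintype.card F : ZMod p))) ≠ ⊥ := by
  set e := orderOf (Fintype.card F : ZMod p) with he
  constructor
  · rw [eq_bot_iff]
    intro x hx
    rw [Subgroup.mem_bot]
    let ρ : (P : Subgroup (GL (Fin n) F)) →* Module.End F (Fin n → F) :=
      (Matrix.toLinAlgEquiv' (R := F) (n := Fin n)).toAlgHom.toRingHom.toMonoidHom.comp
        ((Units.coeHom _).comp (P : Subgroup (GL (Fin n) F)).subtype)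
    have h := main_finite_field_log hpq n _ P.isPGroup' (Fin n → F) (Module.finrank_fin_fun F) ρ x hx
    refine Subtype.ext (Units.ext ((Matrix.toLinAlgEquiv' (R := F) (n := Fin n)).injective ?_))
    show ρ x = Matrix.toLinAlgEquiv' (1 : Matrix (Fin n) (Fin n) F)
    rw [h, map_one]
  · set k := Nat.log p (n / e) with hk
    intro h
    have he0 : 0 < e := by
      have hne : (Fintype.card F : ZMod p) ≠ 0 := by rwa [Ne, ZMod.natCast_eq_zero_iff]
      rw [he, orderOf_pos_iff, isOfFinOrder_iff_pow_eq_one]
      exact ⟨p - 1, Nat.sub_pos_of_lt (Fact.out : p.Prime).one_lt,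
        ZMod.pow_card_sub_one_eq_one hne⟩
    have hle : p ^ k * e ≤ n := (Nat.le_div_iff_mul_le he0).1
      (Nat.pow_log_le_self p (Nat.div_pos hn he0).ne')
    obtain ⟨Q, hQ, hj⟩ := hasDL_le p hle (hasDL_iter (F := F) p hpq k)
    let f : ((Fin n → F) ≃ₗ[F] (Fin n → F)) →* GL (Fin n) F :=
      ((LinearMap.GeneralLinearGroup.generalLinearEquiv F (Fin n → F)).symm.trans
        (Matrix.GeneralLinearGroup.toLin (n := Fin n) (R := F)).symm).toMonoidHom
    have hf : Function.Injective f := MulEquiv.injective _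
    obtain ⟨P', hP'⟩ := (hQ.map f).exists_le_sylow
    let ψ : Q →* (P : Subgroup (GL (Fin n) F)) :=
      (P'.equiv P).toMonoidHom.comp
        ((Subgroup.inclusion hP').comp (Q.equivMapOfInjective f hf).toMonoidHom)
    have hψ : Function.Injective ψ :=
      (P'.equiv P).injective.comp
        ((Subgroup.inclusion_injective hP').comp (Q.equivMapOfInjective f hf).injective)
    have := map_derivedSeries_le_derivedSeries ψ k
    rw [h, le_bot_iff] at this
    exact hj ((Subgroup.map_eq_bot_iff_of_injective _ hψ).1 this)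

end Cfsg.Agent.LinearPGroupDL
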